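import Groth.Agent.Flat2F.GorFibB
import Groth.Agent.Flat2D.FiberStalk
import Groth.Prelude.Def_Dual3

/-!
# Local rings of fibres and dualizing complexes under flat base change

* `isDualizing_flatBC_of_fibLoc`: flat finite type base change of a dualizing complex is dualizing
  when the fibre local rings at the maximal ideals are Gorenstein.
* `GorFib`: the property "`S / m_R S` is a Gorenstein local ring" of a map of rings with local source,
  its invariance under isomorphisms of arrows, and the comparison of the stalk maps of a scheme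
  morphism with its affine charts.
-/

set_option autoImplicit false
universe u

open CategoryTheory CategoryTheory.Limits AlgebraicGeometry
open scoped TensorProduct

attribute [local instance] HasDerivedCategory.standard

namespace Groth.Agent.Dual.H332.FibGor

open Groth.Agent.LoccohB.FlatLBC Groth.Agent.LoccohB.HomBC

/-- The dimension of the local rings of fibres of a finite type algebra is uniformly bounded. -/
theorem exists_bound_fibLoc (A B : Type u) [CommRing A] [CommRing B] [Algebra A B]
    [Algebra.FiniteType A B] : ∃ N : ℕ, ∀ (n : Ideal B) [n.IsPrime],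
      ringKrullDim (EGA4.FibLocRing A B n) ≤ N := by
  obtain ⟨N, f, hf⟩ := Algebra.FiniteType.iff_quotient_mvPolynomial''.1
    (inferInstance : Algebra.FiniteType A B)
  refine ⟨N, fun n _ => ?_⟩
  set p := n.comap (algebraMap A B) with hp
  obtain ⟨q', hq', -, ⟨e⟩⟩ := Groth.Agent.Ega4B.FibLoc.exists_fibLocRing_equiv A B n
  rw [← ringKrullDim_eq_of_ringEquiv e]
  rw [IsLocalization.AtPrime.ringKrullDim_eq_height q' (Localization.AtPrime q')]
  refine (Ideal.height_le_ringKrullDim_of_ne_top hq'.ne_top).trans ?_
  have hsurj : Function.Surjective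
      (Algebra.TensorProduct.map (AlgHom.id p.ResidueField p.ResidueField) f) :=
    Algebra.TensorProduct.map_surjective _ _ Function.surjective_id hf
  refine (ringKrullDim_le_of_surjective _ hsurj).trans ?_
  rw [ringKrullDim_eq_of_ringEquiv (MvPolynomial.algebraTensorAlgEquiv A p.ResidueField).toRingEquiv]
  rw [MvPolynomial.ringKrullDim_of_isNoetherianRing]
  simp

/-- **Base change of dualizing complexes along flat maps of finite type whose fibre local rings are
Gorenstein.** -/
theorem isDualizing_flatBC_of_fibLoc {A B : Type u} [CommRing A] [CommRing B] [Algebra A B]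
    (h : (algebraMap A B).Flat) [IsNoetherianRing B] [Algebra.FiniteType A B]
    (hG : ∀ (n : Ideal B) [n.IsMaximal], LocCoh.IsGorensteinLocalRing (EGA4.FibLocRing A B n))
    (K : Dual.D A) (hK : Dual.IsDualizing A K) :
    Dual.IsDualizing B ((flatBC (algebraMap A B) h).obj K) := by
  have := hK.isNoetherianRing
  obtain ⟨a, b, hge, hle, hab⟩ := exists_bounds_of_isDualizing hK
  obtain ⟨N, hN⟩ := exists_bound_fibLoc A B
  refine Groth.Agent.Flat2F.DualBC.isDualizing_flatBC B h hK ⟨b + N, fun n _ i hi => ?_⟩
  exact Groth.Agent.Flat2F.GorFibB.subsingleton_hom_residue h K a b hK.finite_cohomology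
    (fun p i hi => hab _ i (Or.inr hi)) n (hG n) N (hN n) i hi

/-- The property "the source is local and `S / m_R S` is a Gorenstein local ring". -/
def GorFib : MorphismProperty CommRingCat.{u} := fun R S ψ =>
  ∃ _ : IsLocalRing R, LocCoh.IsGorensteinLocalRing (S ⧸ (IsLocalRing.maximalIdeal R).map ψ.hom)

theorem GorFib.of_iso_right {R S S' : CommRingCat.{u}} (ψ : R ⟶ S) (e : S ≅ S')
    (h : GorFib ψ) : GorFib (ψ ≫ e.hom) := by
  obtain ⟨h1, h2⟩ := h
  refine ⟨h1, ?_⟩
  refine Groth.Agent.LoccohB.GorBasic.isGorensteinLocalRing_of_ringEquiv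
    (Ideal.quotientEquiv _ _ e.commRingCatIsoToRingEquiv ?_) h2
  rw [Ideal.map_map]
  rfl

theorem GorFib.of_iso_left {R R' S : CommRingCat.{u}} (e : R' ≅ R) (ψ : R ⟶ S)
    (h : GorFib ψ) : GorFib (e.hom ≫ ψ) := by
  obtain ⟨h1, h2⟩ := h
  have h3 : IsLocalRing R' := e.symm.commRingCatIsoToRingEquiv.isLocalRing
  refine ⟨h3, ?_⟩
  refine Groth.Agent.LoccohB.GorBasic.isGorensteinLocalRing_of_ringEquiv
    (Ideal.quotEquivOfEq ?_) h2
  have h4 : (IsLocalRing.maximalIdeal R').map e.hom.hom = IsLocalRing.maximalIdeal R :=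
    IsLocalRing.map_ringEquiv_maximalIdeal e.commRingCatIsoToRingEquiv
  rw [← h4, Ideal.map_map]
  rfl

instance respectsIso_gorFib : (GorFib.{u}).RespectsIso where
  precomp e he ψ h := by
    have := he
    exact GorFib.of_iso_left (asIso e) ψ h
  postcomp e he ψ h := by
    have := he
    exact GorFib.of_iso_right ψ (asIso e) h

theorem gorFib_iso_left_iff {R R' S : CommRingCat.{u}} (e : R' ≅ R) (ψ : R ⟶ S) :
    GorFib (e.hom ≫ ψ) ↔ GorFib ψ :=
  MorphismProperty.cancel_left_of_respectsIso GorFib _ _

/-- Comparison of `GorFib` at the stalk maps for a chart. -/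
theorem gorFib_stalkMap_iff {X Y S T : Scheme.{u}} (f : X ⟶ Y) (g : S ⟶ T)
    (j : S ⟶ X) (i : T ⟶ Y) [IsOpenImmersion j] [IsOpenImmersion i]
    (h : j ≫ f = g ≫ i) (n : S) : GorFib (f.stalkMap (j n)) ↔ GorFib (g.stalkMap n) := by
  have h1 : GorFib (f.stalkMap (j n)) ↔ GorFib (f.stalkMap (j n) ≫ j.stalkMap n) :=
    (MorphismProperty.cancel_right_of_respectsIso GorFib _ _).symm
  have h2 : f.stalkMap (j n) ≫ j.stalkMap n = (j ≫ f).stalkMap n :=
    (Scheme.Hom.stalkMap_comp j f n).symm
  have h3 := Scheme.Hom.stalkMap_congr_hom _ _ h n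
  have h4 := Scheme.Hom.stalkMap_comp g i n
  rw [h1, h2, h3, h4]
  refine (gorFib_iso_left_iff _ _).trans ?_
  have h5 : IsIso (i.stalkMap (g n)) := inferInstance
  exact gorFib_iso_left_iff (@asIso _ _ _ _ (i.stalkMap (g n)) h5) (g.stalkMap n)

/-- `GorFib` at the stalk maps of a morphism of affine schemes. -/
theorem gorFib_stalkMap_spec_iff {A B : Type u} [CommRing A] [CommRing B] [Algebra A B]
    (n : PrimeSpectrum B) :
    GorFib ((Spec.map (CommRingCat.ofHom (algebraMap A B))).stalkMap n) ↔
      LocCoh.IsGorensteinLocalRing (EGA4.FibLocRing A B n.asIdeal) := by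
  refine (MorphismProperty.arrow_mk_iso_iff GorFib
    (Scheme.arrowStalkMapSpecIso (CommRingCat.ofHom (algebraMap A B)) n)).trans ?_
  have key : (IsLocalRing.maximalIdeal (Localization.AtPrime
      (n.comap (algebraMap A B)).asIdeal)).map (Localization.localRingHom
      (n.comap (algebraMap A B)).asIdeal n.asIdeal (algebraMap A B) rfl) =
      (n.asIdeal.comap (algebraMap A B)).map
        (algebraMap A (Localization.AtPrime n.asIdeal)) := by
    rw [← Localization.AtPrime.map_eq_maximalIdeal, Ideal.map_map]
    congr 1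
    ext a
    exact (Localization.localRingHom_to_map _ _ _ rfl a).trans
      (IsScalarTower.algebraMap_apply A B _ a).symm
  constructor
  · rintro ⟨h1, h2⟩
    exact Groth.Agent.LoccohB.GorBasic.isGorensteinLocalRing_of_ringEquiv
      (Ideal.quotEquivOfEq key) h2
  · intro h
    exact ⟨inferInstanceAs (IsLocalRing (Localization.AtPrime
      (n.comap (algebraMap A B)).asIdeal)),
      Groth.Agent.LoccohB.GorBasic.isGorensteinLocalRing_of_ringEquiv
      (Ideal.quotEquivOfEq key.symm) h⟩

end Groth.Agent.Dual.H332.FibGor
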