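import Groth.Agent.LoccohB.DualLoc
import Mathlib.RingTheory.Finiteness.Descent
import Mathlib.RingTheory.Spectrum.Prime.Basic

/-!
# Jointly faithful flat families of algebras

* `jointlyFaithful_of_surj`: a family of flat `A`-algebras whose spectra jointly cover `Spec A` is jointly
  faithful.
* `finite_of_jointlyFaithful`: descent of finiteness of modules along a finite jointly faithful family.
* `isDualizing_of_flat_family`: descent of dualizing complexes.
-/

set_option autoImplicit false
universe w v u

open CategoryTheory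
open scoped TensorProduct

attribute [local instance] HasDerivedCategory.standard

namespace Groth.Agent.Dual.H332.JointFaith

open Groth.Agent.LoccohB.DualBC Groth.Agent.LoccohB.FlatLBC

variable {A : Type u} [CommRing A] {ι : Type v} (B : ι → Type u) [∀ i, CommRing (B i)]
  [∀ i, Algebra A (B i)]

/-- A family of flat algebras jointly covering the spectrum is jointly faithful. -/
theorem jointlyFaithful_of_surj [∀ i, Module.Flat A (B i)]
    (hs : ∀ p : PrimeSpectrum A, ∃ (i : ι) (q : PrimeSpectrum (B i)),
      q.comap (algebraMap A (B i)) = p) : JointlyFaithful (A := A) B := by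
  intro N _ _ hN
  by_contra hne
  rw [not_subsingleton_iff_nontrivial] at hne
  obtain ⟨x, hx⟩ := exists_ne (0 : N)
  let g : A →ₗ[A] N := LinearMap.toSpanSingleton A N x
  let I : Ideal A := LinearMap.ker g
  have hI : I ≠ ⊤ := by
    intro h
    have h1 : (1 : A) ∈ I := by rw [h]; trivial
    apply hx
    have h2 : (1 : A) • x = 0 := h1
    rwa [one_smul] at h2
  obtain ⟨m, hm, hIm⟩ := Ideal.exists_le_maximal I hI
  obtain ⟨i, q, hq⟩ := hs ⟨m, hm.isPrime⟩
  have hsub := hN i
  have hg : Function.Injective (Submodule.liftQ I g le_rfl) := by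
    rw [← LinearMap.ker_eq_bot]
    exact Submodule.ker_liftQ_eq_bot _ _ _ le_rfl
  have h1 : Function.Injective ((Submodule.liftQ I g le_rfl).lTensor (B i)) :=
    Module.Flat.lTensor_preserves_injective_linearMap _ hg
  have h2 : Subsingleton (B i ⊗[A] (A ⧸ I)) := h1.subsingleton
  have h3 : Subsingleton (B i ⧸ I.map (algebraMap A (B i))) :=
    (Algebra.TensorProduct.quotIdealMapEquivTensorQuot (B i) I).toEquiv.subsingleton
  rw [Ideal.Quotient.subsingleton_iff] at h3
  apply q.isPrime.ne_top
  rw [← top_le_iff, ← h3, Ideal.map_le_iff_le_comap]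
  have h4 : q.asIdeal.comap (algebraMap A (B i)) = m := congrArg PrimeSpectrum.asIdeal hq
  rw [h4]
  exact hIm

variable {B}

/-- Finiteness descends along finite jointly faithful families. -/
theorem finite_of_jointlyFaithful [Finite ι] (hB : JointlyFaithful (A := A) B)
    (N : Type u) [AddCommGroup N] [Module A N]
    (hN : ∀ i, Module.Finite (B i) (B i ⊗[A] N)) : Module.Finite A N := by
  have H : ∀ i, ∃ S : Submodule A N, S.FG ∧
      Function.Surjective (S.subtype.lTensor (B i)) := by
    intro i
    have := hN i
    obtain ⟨n, s, hs⟩ := Module.Finite.exists_fin (R := B i) (M := B i ⊗[A] N)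
    choose k t m h using fun i : Fin n ↦ TensorProduct.exists_sum_tmul_eq (s i)
    refine ⟨Submodule.span A (Set.range fun x : (Σ i, Fin (k i)) => m x.1 x.2),
      Submodule.fg_span (Set.finite_range _), ?_⟩
    set S := Submodule.span A (Set.range fun x : (Σ i, Fin (k i)) => m x.1 x.2) with hS
    have : Function.Surjective (TensorProduct.AlgebraTensorModule.lTensor (B i) (B i)
        S.subtype) := by
      rw [← LinearMap.range_eq_top, eq_top_iff, ← hs, Submodule.span_le, Set.range_subset_iff]
      intro l
      refine ⟨∑ (j : Fin (k l)), t l j ⊗ₜ ⟨m l j, Submodule.subset_span ⟨⟨l, j⟩, rfl⟩⟩, ?_⟩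
      simp [h l]
    exact this
  choose S hS hS' using H
  have hfg : (⨆ i, S i).FG := Submodule.fg_iSup S hS
  have htop : (⨆ i, S i) = ⊤ := by
    rw [← Submodule.Quotient.subsingleton_iff]
    apply hB.subsingleton
    intro i
    have h1 : Function.Surjective ((⨆ i, S i).mkQ.lTensor (B i)) :=
      LinearMap.lTensor_surjective _ (Submodule.mkQ_surjective _)
    have h2 : ((⨆ i, S i).mkQ.lTensor (B i)) ∘ₗ ((S i).subtype.lTensor (B i)) = 0 := by
      rw [← LinearMap.lTensor_comp]
      have : (⨆ i, S i).mkQ ∘ₗ (S i).subtype = 0 := by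
        ext x
        simp only [LinearMap.comp_apply, Submodule.mkQ_apply, LinearMap.zero_apply,
          Submodule.Quotient.mk_eq_zero, Submodule.subtype_apply]
        exact (le_iSup S i) x.2
      rw [this, LinearMap.lTensor_zero]
    refine ⟨fun x y => ?_⟩
    obtain ⟨x, rfl⟩ := h1 x
    obtain ⟨y, rfl⟩ := h1 y
    obtain ⟨x, rfl⟩ := hS' i x
    obtain ⟨y, rfl⟩ := hS' i y
    exact (LinearMap.congr_fun h2 x).trans (LinearMap.congr_fun h2 y).symm
  rw [htop] at hfg
  exact ⟨hfg⟩

/-- **Descent of dualizing complexes** along a finite family of flat algebras jointly covering the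
spectrum. -/
theorem isDualizing_of_flat_family [IsNoetherianRing A] [Finite ι]
    (h : ∀ i, (algebraMap A (B i)).Flat)
    (hs : ∀ p : PrimeSpectrum A, ∃ (i : ι) (q : PrimeSpectrum (B i)),
      q.comap (algebraMap A (B i)) = p) {K : Dual.D A}
    (hK : ∀ i, Dual.IsDualizing (B i) ((flatBC (algebraMap A (B i)) (h i)).obj K)) :
    Dual.IsDualizing A K := by
  have hflat : ∀ i, Module.Flat A (B i) := fun i => (RingHom.flat_algebraMap_iff).1 (h i)
  have hB := jointlyFaithful_of_surj B hs
  exact isDualizing_of_family hB h (fun N _ _ hN => finite_of_jointlyFaithful hB N hN) hK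

end Groth.Agent.Dual.H332.JointFaith
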