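import Groth.Prelude.Def_DualSch
import Groth.Prelude.Def_Dual3
import Groth.Agent.LoccohB.GoodSch
import Groth.Agent.PerfB.QCohDesc
import Groth.Agent.Ega1.DualSchBdd
import Groth.Agent.Dual.H332.FibGor
import Groth.Agent.Dual.H332.JointFaith
import Mathlib.AlgebraicGeometry.Noetherian
import Mathlib.AlgebraicGeometry.Morphisms.UniversallyOpen

/-!
# Dualizing complexes and flat morphisms with Gorenstein fibres

* `pullModel`: the model of `f^* K` on a chart of a flat morphism `f`.
* `isDualizingSch_pullbackD`: `f^*` of a dualizing complex along a flat morphism, locally of finite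
  type, with Gorenstein local rings of fibres, is dualizing.
* `isDualizingSch_of_pullbackD`: descent along a flat surjective morphism locally of finite type.
* `isDualizingSch_iff_Lpull`: both, for `Lf^*`.
-/

set_option autoImplicit false
universe u

open CategoryTheory CategoryTheory.Limits AlgebraicGeometry

attribute [local instance] HasDerivedCategory.standard

namespace Groth.Agent.Dual.H332.FlatDual

open Groth.Agent.PerfA.Restrict Groth.Agent.PerfA.PerfLocal Groth.Agent.PerfB.FlatPull Groth.Agent.LoccohB.FlatLBC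
  Groth.Agent.LoccohB.HomBC Groth.Agent.LoccohB.GoodSch Groth.Agent.Dual.H332.FibGor
  Groth.Agent.Dual.H332.JointFaith

/-- Model of the flat pullback on a chart. -/
noncomputable def pullModel {X Y : Scheme.{u}} (f : X ⟶ Y) [Flat f] {A B : CommRingCat.{u}}
    (φ : A ⟶ B) (j : Spec B ⟶ X) (i : Spec A ⟶ Y) [IsOpenImmersion j] [IsOpenImmersion i]
    (h : j ≫ f = Spec.map φ ≫ i) (hφ : φ.hom.Flat) [PreservesFiniteLimits (tilde.functor A)]
    [PreservesFiniteLimits (tilde.functor B)] (K : DCoh.D Y)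
    (ω : DerivedCategory (ModuleCat.{u} A)) (e : (restrictD i).obj K ≅ (DCoh.tildeD A).obj ω) :
    (restrictD j).obj ((pullbackD f).obj K) ≅ (DCoh.tildeD B).obj ((flatBC φ.hom hφ).obj ω) :=
  haveI : Flat (Spec.map φ) := (HasRingHomProperty.Spec_iff (P := @Flat)).2 hφ
  haveI := ModuleCat.preservesFiniteLimits_extendScalars_of_flat hφ
  (pullbackDSquare h).app K ≪≫ (pullbackD (Spec.map φ)).mapIso e ≪≫
    (Groth.Agent.PerfB.TildeBC.tildeDPullback φ).app ω

section Factor

variable {X Y : Scheme.{u}} (f : X ⟶ Y)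

/-- Morphisms of affine schemes factoring a chart. -/
theorem exists_factor {A : CommRingCat.{u}} {Z : Scheme.{u}} (g : Z ⟶ Y) (i : Spec A ⟶ Y)
    [IsOpenImmersion i] (h : Set.range g ⊆ Set.range i) :
    ∃ k : Z ⟶ Spec A, g = k ≫ i :=
  ⟨IsOpenImmersion.lift i g h, (IsOpenImmersion.lift_fac i g h).symm⟩

theorem flat_of_comp {X Y Z : Scheme.{u}} (g : X ⟶ Y) (i : Y ⟶ Z) [hi : IsOpenImmersion i]
    (h : Flat (g ≫ i)) : Flat g :=
  MorphismProperty.IsStableUnderBaseChange.hasOfPostcompProperty_monomorphisms.of_postcomp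
    (W := (@Flat : MorphismProperty Scheme.{u})) g i (inferInstanceAs (Mono i)) h

theorem locallyOfFiniteType_of_comp' {X Y Z : Scheme.{u}} (g : X ⟶ Y) (i : Y ⟶ Z)
    (h : LocallyOfFiniteType (g ≫ i)) : LocallyOfFiniteType g :=
  locallyOfFiniteType_of_comp g i

end Factor

section Main

variable {X Y : Scheme.{u}} (f : X ⟶ Y) [Flat f] [LocallyOfFiniteType f]
  [IsLocallyNoetherian Y] [IsLocallyNoetherian X]
  [∀ (U : Scheme.{u}) (j : U ⟶ X) [IsOpenImmersion j],
    PreservesFiniteLimits (Scheme.Modules.restrictFunctor j)]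
  [∀ (U : Scheme.{u}) (j : U ⟶ Y) [IsOpenImmersion j],
    PreservesFiniteLimits (Scheme.Modules.restrictFunctor j)]
  [∀ (R : CommRingCat.{u}), PreservesFiniteLimits (tilde.functor R)]

omit [IsLocallyNoetherian Y] [∀ (U : Scheme.{u}) (j : U ⟶ X) [IsOpenImmersion j],
    PreservesFiniteLimits (Scheme.Modules.restrictFunctor j)] in
/-- The model of the pullback of a dualizing complex on a chart is dualizing. -/
theorem exists_dualizing_model (hG : ∀ x : X, GorFib (f.stalkMap x)) (K : DCoh.D Y)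
    (hK : Dual2.IsDualizingSch Y K) {A C : CommRingCat.{u}} (φ : A ⟶ C) (j : Spec C ⟶ X)
    (i : Spec A ⟶ Y) [IsOpenImmersion j] [IsOpenImmersion i] (h : j ≫ f = Spec.map φ ≫ i) :
    ∃ ω : Dual.D C, Dual.IsDualizing C ω ∧
      Nonempty ((restrictD j).obj ((pullbackD f).obj K) ≅ (DCoh.tildeD C).obj ω) := by
  obtain ⟨ω, hω, ⟨e⟩⟩ := hK A i
  have hflat : Flat (Spec.map φ) := flat_of_comp _ i (by rw [← h]; infer_instance)
  have hft : LocallyOfFiniteType (Spec.map φ) :=
    locallyOfFiniteType_of_comp' _ i (by rw [← h]; infer_instance)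
  have hφ : φ.hom.Flat := (HasRingHomProperty.Spec_iff (P := @Flat)).1 hflat
  have hφ' : φ.hom.FiniteType := (HasRingHomProperty.Spec_iff (P := @LocallyOfFiniteType)).1 hft
  let _ : Algebra A C := φ.hom.toAlgebra
  have : Algebra.FiniteType A C := hφ'
  have hC : IsNoetherianRing C := isNoetherianRing_of_isOpenImmersion C j
  refine ⟨(flatBC φ.hom hφ).obj ω, ?_, ⟨pullModel f φ j i h hφ K ω e⟩⟩
  refine isDualizing_flatBC_of_fibLoc (A := A) (B := C) hφ (fun n hn => ?_) ω hω
  let q : PrimeSpectrum C := ⟨n, hn.isPrime⟩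
  exact (gorFib_stalkMap_spec_iff (A := A) (B := C) q).1
    ((gorFib_stalkMap_iff f (Spec.map φ) j i h q).1 (hG _))

omit [IsLocallyNoetherian Y] in
/-- **Flat pullback of dualizing complexes.** -/
theorem isDualizingSch_pullbackD (hG : ∀ x : X, GorFib (f.stalkMap x)) (K : DCoh.D Y)
    (hK : Dual2.IsDualizingSch Y K) : Dual2.IsDualizingSch X ((pullbackD f).obj K) := by
  intro B _ j _
  have hB : IsNoetherianRing B := isNoetherianRing_of_isOpenImmersion B j
  have hQ : DCoh.IsQCohD ((pullbackD f).obj K) :=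
    Groth.Agent.PerfB.QCohDesc.isQCohD_pullbackD f
      (Groth.Agent.PerfA.QCohD.isQCohD_of_isCohD
        (Groth.Agent.Ega1.DualSchBdd.isCohD_of_isDualizingSch hK))
  obtain ⟨ω, ⟨e⟩⟩ := exists_model ((pullbackD f).obj K) (CommRingCat.of B) j hQ
  refine ⟨ω, ?_, ⟨e⟩⟩
  -- local charts
  have H : ∀ p : PrimeSpectrum B, ∃ b : B, p ∈ PrimeSpectrum.basicOpen b ∧
      Dual.IsDualizing (Localization.Away b) ((flatBC (algebraMap B (Localization.Away b))
        (RingHom.flat_algebraMap_iff.2 (IsLocalization.flat _ (Submonoid.powers b)))).obj ω) := by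
    intro p
    obtain ⟨A, i, hi, ⟨y, hy⟩⟩ : ∃ (A : CommRingCat.{u}) (i : Spec (CommRingCat.of A) ⟶ Y)
        (_ : IsOpenImmersion i), f (j p) ∈ Set.range i := by
      have h1 : IsOpenImmersion (Y.affineCover.f (Y.affineCover.idx (f (j p)))) := inferInstance
      exact ⟨_, Y.affineCover.f (Y.affineCover.idx (f (j p))), h1, Y.affineCover.covers _⟩
    have hopen : IsOpen ((j ≫ f) ⁻¹' Set.range i : Set (Spec (CommRingCat.of B))) :=
      i.isOpenEmbedding.isOpen_range.preimage (j ≫ f).continuous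
    obtain ⟨_, ⟨b, rfl⟩, hpb, hb⟩ :=
      PrimeSpectrum.isTopologicalBasis_basic_opens.exists_subset_of_mem_open
      (a := p) (u := ((j ≫ f) ⁻¹' Set.range i : Set (Spec (CommRingCat.of B)))) ⟨y, by
        rw [hy]; rfl⟩ hopen
    refine ⟨b, hpb, ?_⟩
    let β : CommRingCat.of B ⟶ CommRingCat.of (Localization.Away b) :=
      CommRingCat.ofHom (algebraMap B (Localization.Away b))
    have hβo : IsOpenImmersion (Spec.map β) :=
      Scheme.isOpenImmersion_SpecMap_localizationAway (R := CommRingCat.of B) b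
    have hβf : β.hom.Flat := RingHom.flat_algebraMap_iff.2
      (IsLocalization.flat _ (Submonoid.powers b))
    have hrange : Set.range (Spec.map β ≫ j ≫ f) ⊆ Set.range i := by
      rintro _ ⟨q, rfl⟩
      have h1 : Spec.map β q ∈ (PrimeSpectrum.basicOpen b : Set (PrimeSpectrum B)) := by
        have h2 : Set.range (PrimeSpectrum.comap (algebraMap B (Localization.Away b))) =
            PrimeSpectrum.basicOpen b := PrimeSpectrum.localization_away_comap_range _ b
        rw [← h2]
        exact ⟨q, rfl⟩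
      exact hb h1
    obtain ⟨k, hk⟩ := exists_factor (Spec.map β ≫ j ≫ f) i hrange
    obtain ⟨φ, rfl⟩ : ∃ φ, k = Spec.map φ := ⟨Spec.preimage k, (Spec.map_preimage k).symm⟩
    obtain ⟨ω', hω', ⟨e'⟩⟩ := exists_dualizing_model f hG K hK φ (Spec.map β ≫ j) i
      (by rw [Category.assoc]; exact hk)
    have E : (restrictD (Spec.map β ≫ j)).obj ((pullbackD f).obj K) ≅
        (DCoh.tildeD (CommRingCat.of (Localization.Away b))).obj ((flatBC β.hom hβf).obj ω) :=
      ((restrictDComp (Spec.map β) j).app _).symm ≪≫ (restrictD (Spec.map β)).mapIso e ≪≫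
        restrictTilde β hβf ω
    obtain ⟨e''⟩ := nonempty_iso_of_tildeD _ (e'.symm ≪≫ E)
    exact isDualizing_of_iso e'' hω'
  choose b hb hb' using H
  obtain ⟨t, ht⟩ := CompactSpace.elim_nhds_subcover
    (fun p : PrimeSpectrum B => (PrimeSpectrum.basicOpen (b p) : Set (PrimeSpectrum B)))
    (fun p => (PrimeSpectrum.basicOpen (b p)).isOpen.mem_nhds (hb p))
  refine isDualizing_of_flat_family (B := fun p : t => Localization.Away (b p.1))
    (fun p => RingHom.flat_algebraMap_iff.2 (IsLocalization.flat _ (Submonoid.powers (b p.1))))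
    (fun p => ?_) (fun p => hb' p.1)
  have h1 : p ∈ ⋃ x ∈ t, (PrimeSpectrum.basicOpen (b x) : Set (PrimeSpectrum B)) := by
    rw [ht]; trivial
  simp only [Set.mem_iUnion] at h1
  obtain ⟨x, hx, hpx⟩ := h1
  have h2 : Set.range (PrimeSpectrum.comap (algebraMap B (Localization.Away (b x)))) =
      PrimeSpectrum.basicOpen (b x) := PrimeSpectrum.localization_away_comap_range _ (b x)
  rw [← h2] at hpx
  obtain ⟨q, hq⟩ := hpx
  exact ⟨⟨x, hx⟩, q, hq⟩

omit [IsLocallyNoetherian X] in
/-- **Descent of dualizing complexes** along flat surjective morphisms locally of finite type. -/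
theorem isDualizingSch_of_pullbackD [Surjective f] (K : DCoh.D Y) (hQ : DCoh.IsQCohD K)
    (hK : Dual2.IsDualizingSch X ((pullbackD f).obj K)) : Dual2.IsDualizingSch Y K := by
  intro A _ i _
  have hA : IsNoetherianRing A := isNoetherianRing_of_isOpenImmersion A i
  obtain ⟨ω, ⟨e⟩⟩ := exists_model K (CommRingCat.of A) i hQ
  refine ⟨ω, ?_, ⟨e⟩⟩
  have H : ∀ p : PrimeSpectrum A, ∃ (B : CommRingCat.{u}) (φ : CommRingCat.of A ⟶ B)
      (h : φ.hom.Flat), IsOpen (Set.range (Spec.map φ)) ∧ p ∈ Set.range (Spec.map φ) ∧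
      Dual.IsDualizing B ((flatBC φ.hom h).obj ω) := by
    intro p
    obtain ⟨x, hx⟩ := f.surjective (i p)
    have hopen : IsOpen (f ⁻¹' Set.range i : Set X) :=
      i.isOpenEmbedding.isOpen_range.preimage f.continuous
    obtain ⟨_, ⟨U, hU, rfl⟩, hxU, hUsub⟩ :=
      X.isBasis_affineOpens.exists_subset_of_mem_open (a := x) (u := (f ⁻¹' Set.range i : Set X))
        ⟨p, hx.symm⟩ hopen
    let j : Spec Γ(X, U) ⟶ X := IsAffineOpen.fromSpec hU
    have hj : IsOpenImmersion j := IsAffineOpen.isOpenImmersion_fromSpec hU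
    have hjr : Set.range j = (U : Set X) := IsAffineOpen.range_fromSpec hU
    have hrange : Set.range (j ≫ f) ⊆ Set.range i := by
      rintro _ ⟨q, rfl⟩
      have h1 : j q ∈ (U : Set X) := by rw [← hjr]; exact ⟨q, rfl⟩
      exact hUsub h1
    obtain ⟨k, hk⟩ := exists_factor (j ≫ f) i hrange
    obtain ⟨φ, rfl⟩ : ∃ φ, k = Spec.map φ := ⟨Spec.preimage k, (Spec.map_preimage k).symm⟩
    have hflat : Flat (Spec.map φ) := flat_of_comp _ i (by rw [← hk]; infer_instance)
    have hft : LocallyOfFiniteType (Spec.map φ) :=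
      locallyOfFiniteType_of_comp' _ i (by rw [← hk]; infer_instance)
    have hφ : φ.hom.Flat := (HasRingHomProperty.Spec_iff (P := @Flat)).1 hflat
    have hnoeth : IsLocallyNoetherian (Spec (CommRingCat.of A)) := isLocallyNoetherian_Spec.2 hA
    obtain ⟨ω', hω', ⟨e'⟩⟩ := hK Γ(X, U) j
    obtain ⟨e''⟩ := nonempty_iso_of_tildeD _ (e'.symm ≪≫ pullModel f φ j i hk hφ K ω e)
    refine ⟨_, φ, hφ, (Spec.map φ).isOpenMap.isOpen_range, ?_, isDualizing_of_iso e'' hω'⟩
    obtain ⟨q, hq⟩ : x ∈ Set.range j := by rw [hjr]; exact hxU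
    refine ⟨q, i.isOpenEmbedding.injective ?_⟩
    rw [← Scheme.Hom.comp_apply, ← hk, Scheme.Hom.comp_apply, hq, hx]
  choose B φ hφ ho hp hd using H
  obtain ⟨t, ht⟩ := CompactSpace.elim_nhds_subcover (X := Spec (CommRingCat.of A))
    (fun p => Set.range (Spec.map (φ p))) (fun p => (ho p).mem_nhds (hp p))
  let _ : ∀ p : t, Algebra A (B p.1) := fun p => (φ p.1).hom.toAlgebra
  refine isDualizing_of_flat_family (B := fun p : t => (B p.1 : Type u))
    (fun p => hφ p.1) (fun p => ?_) (fun p => hd p.1)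
  have h1 : p ∈ ⋃ x ∈ t, (Set.range (Spec.map (φ x)) : Set (Spec (CommRingCat.of A))) := by
    rw [ht]; trivial
  obtain ⟨x, hx, ⟨q, hq⟩⟩ := Set.mem_iUnion₂.1 h1
  exact ⟨⟨x, hx⟩, q, hq⟩

/-- **Dualizing complexes and flat surjective morphisms locally of finite type with Gorenstein
fibres.** -/
theorem isDualizingSch_iff_Lpull [Surjective f] (hG : ∀ x : X, GorFib (f.stalkMap x))
    [DCoh.HasLpull f] (K : DCoh.DQCoh Y) :
    Dual2.IsDualizingSch Y K.obj ↔ Dual2.IsDualizingSch X ((DCoh.Lpull f).obj K.obj) := by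
  have key : ∀ {L L' : DCoh.D X} (_ : L ≅ L'), Dual2.IsDualizingSch X L →
      Dual2.IsDualizingSch X L' := by
    intro L L' e h A _ j _
    obtain ⟨ω, hω, ⟨e'⟩⟩ := h A j
    exact ⟨ω, hω, ⟨(restrictD j).mapIso e.symm ≪≫ e'⟩⟩
  constructor
  · intro h
    exact key ((lpullIso f).app K.obj).symm (isDualizingSch_pullbackD f hG K.obj h)
  · intro h
    exact isDualizingSch_of_pullbackD f K.obj K.property (key ((lpullIso f).app K.obj) h)

end Main

end Groth.Agent.Dual.H332.FlatDual
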